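import Cfsg.Agent.E7P.Iface
import Cfsg.Agent.R2.T1.Mu.Root

/-!
# S5932: white subspaces of the 56-dimensional module (helper9)

* `Kf.nt_bf_wv` : `2 (wv a, wv b) = p2 a b`;
* `Sit.nt_white_set`, `Sit.nt_white` : **WHITE**, there is no stable set `X ≠ 0` with `DD (X, X) = 0`;
* `Sit.nt_norm` : `M` normalises `A`; `Sit.nt_fix`, `Sit.nt_stb_fix` : the fixed spaces of `A` are stable;
* `Sit.nt_nofixV` : **NoFixV**.
-/

set_option autoImplicit false
set_option maxRecDepth 100000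

namespace Cfsg.Agent.E7P

open Cfsg Cfsg.Lie Matrix Module
open Cfsg.Agent.ChevalleyStructure.RootVec
open Cfsg.Agent.H943.E7V.Block (D1 rho)
open Cfsg.Agent.R2.T1 Cfsg.Agent.E7P.Kf
open Cfsg.Agent.R2.PX (del DD dd p2 mmn W56)

universe u v

namespace Kf

theorem nt_chk_mmn : ∀ s < 240, rt chevE8 s 7 = 1 → ∀ j < 7,
    ((List.range 7).map fun i => chevE8.cartan i s * iC i j).sum = mmn s j := by decide +kernel

/-- the inner product of two weights -/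
theorem nt_bf_wv (a b : D1) : 2 * bf (wv a) (wv b) = (p2 a b : ℝ) := by
  rw [R2.PX.p2_eq, sum7, bf_def]
  push_cast
  simp only [Finset.mul_sum]
  rw [Finset.sum_comm]
  refine Finset.sum_congr rfl fun j _ => ?_
  rw [← nt_chk_mmn _ (nn_lt a) (rt_nn a) j j.2, sum7]
  push_cast
  rw [Finset.sum_mul]
  refine Finset.sum_congr rfl fun i _ => ?_
  show 2 * (((chevE8.cartan i (nn a) : ℤ) : ℝ) * (((iC i j : ℤ) : ℝ) / 2 * ((chevE8.cartan j (nn b) : ℤ) : ℝ))) = _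
  ring

end Kf

namespace Sit

variable {p a b : ℕ} {F : Type u} {K : Type v} {k : Type u} [Field F] [Fintype F] [Field K] [Fintype K] [Field k]
  (S : Sit p a b F K k)

include S in
theorem nt_two (hp : p ≠ 2) : (2 : k) ≠ 0 := by
  have := S.chark
  exact fun h => hp ((Nat.prime_dvd_prime_iff_eq S.prime Nat.prime_two).1
    ((CharP.cast_eq_zero_iff k p 2).1 (by exact_mod_cast h)))

/-- **WHITE** for sets -/
theorem nt_white_set (hp : p ≠ 2) {X : Set (D1 → k)} (h0 : ∃ x ∈ X, x ≠ 0)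
    (hM : ∀ m ∈ S.M, ∀ x ∈ X, rho k m *ᵥ x ∈ X) (hσ : ∀ x ∈ X, S.sv x ∈ X)
    (hD : ∀ x ∈ X, ∀ y ∈ X, DD k x y = 0) : False := by
  have h2 := S.nt_two hp
  obtain ⟨x, hx, hx0⟩ := h0
  obtain ⟨g, c, hc, e⟩ := Mu.pure_top h2 (hD x hx x hx) hx0
  refine S.kill_unst wrep_V ⟨⟨x, hx, hx0⟩, g⁻¹, wv topv, fun y hy i hi => ?_⟩ hM hσ
  rw [inv_inv, ← V_apply] at hi
  have h1 : DD k (bs k topv) (V k g y) = 0 := by
    have h3 := (Mu.DD_V_iff g).2 (hD x hx y hy)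
    rw [e, R2.PX.DD_smul_left] at h3
    exact (smul_eq_zero.1 h3).resolve_left hc
  obtain ⟨h3, h4⟩ := Mu.top_zero h2 h1
  have h5 := nt_bf_wv topv i
  have h6 : 0 < p2 topv i := by
    rcases R2.PX.p2_cases topv i with h | h | h | h
    · omega
    · omega
    · exact absurd (h3 i (by rw [R2.PX.p2_comm]; exact h)) hi
    · rw [R2.PX.p2_eq_neg_three.1 h] at hi
      exact absurd h4 hi
  have h7 : (0 : ℝ) < p2 topv i := by exact_mod_cast h6
  show 0 < bf (wv topv) (wv i)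
  linarith

/-- **WHITE** -/
theorem nt_white (hp : p ≠ 2) {W : Submodule k (D1 → k)} (hW : S.Stb (rho k) W)
    (hD : ∀ x ∈ W, ∀ y ∈ W, DD k x y = 0) : W = ⊥ := by
  by_contra h0
  obtain ⟨x, hx, hx0⟩ := Submodule.exists_mem_ne_zero_of_ne_bot h0
  exact S.nt_white_set hp (X := W) ⟨x, hx, hx0⟩ hW.1 hW.2 hD

section
variable {I : Type} [Fintype I] [DecidableEq I] {c : I → Fin 7 → ℤ} {R : Gh k →* Matrix I I k}

theorem nt_sv_mulVec (hR : WRep c R) (g : Gh k) (w : I → k) : S.sv (R g *ᵥ w) = R (S.σ g) *ᵥ S.sv w := by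
  funext i
  show S.s ((R g *ᵥ w) i) = _
  rw [RingHom.map_mulVec, ← hR.frob]
  rfl

variable (R) in
/-- the vectors which are fixed by `A` -/
def nt_fix : Submodule k (I → k) where
  carrier := {y | ∀ x, R (S.ψ x) *ᵥ y = y}
  zero_mem' := fun _ => mulVec_zero _
  add_mem' := fun hx hy x => by rw [mulVec_add, hx x, hy x]
  smul_mem' := fun t _ hy x => by rw [mulVec_smul, hy x]

theorem nt_mem_fix {y : I → k} : y ∈ S.nt_fix R ↔ ∀ x, R (S.ψ x) *ᵥ y = y := Iff.rfl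

end

include S in
theorem nt_perfect : commutator (SpecialLinearGroup (Fin 2) K) = ⊤ :=
  TwoFusion.SLTwoFacts.commutator_eq_top (by have := S.k_four; omega)

/-- a subgroup which contains all commutators -/
theorem nt_all {T : Subgroup (SpecialLinearGroup (Fin 2) K)} (S : Sit p a b F K k)
    (h : ∀ x y, x * y * x⁻¹ * y⁻¹ ∈ T) (x : SpecialLinearGroup (Fin 2) K) : x ∈ T := by
  have h1 : commutator (SpecialLinearGroup (Fin 2) K) ≤ T := Subgroup.commutator_le.2 fun x _ y _ => h x y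
  rw [S.nt_perfect] at h1
  exact h1 (Subgroup.mem_top x)

theorem nt_center_of_ad {x y : Gh k} (h : ad k x = ad k y) : ∃ z ∈ Subgroup.center (Gh k), x = y * z :=
  ⟨y⁻¹ * x, by rw [← ker_ad, MonoidHom.mem_ker, map_mul, map_inv, h, inv_mul_cancel], by group⟩

theorem nt_comm_center {G : Type*} [Group G] {x y z z' : G} (hz : z ∈ Subgroup.center G) (hz' : z' ∈ Subgroup.center G) :
    x * z * (y * z') * (x * z)⁻¹ * (y * z')⁻¹ = x * y * x⁻¹ * y⁻¹ := by
  have h1 : x * z * (y * z') * (x * z)⁻¹ = x * (y * z') * x⁻¹ := by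
    rw [mul_assoc x, ← Subgroup.mem_center_iff.1 hz]
    group
  rw [h1, show x * (y * z') * x⁻¹ = x * y * (z' * x⁻¹) by group, ← Subgroup.mem_center_iff.1 hz']
  group

/-- `M` normalises `A` -/
theorem nt_norm {m : Gh k} (hm : m ∈ S.M) (x : SpecialLinearGroup (Fin 2) K) : ∃ x', m * S.ψ x * m⁻¹ = S.ψ x' := by
  refine S.nt_all (T := (S.ψ.range.comap (MulAut.conj m).toMonoidHom).comap S.ψ) (fun x y => ?_) x |>.imp fun _ h => h.symm
  obtain ⟨x', hx⟩ := S.k_norm hm x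
  obtain ⟨y', hy⟩ := S.k_norm hm y
  obtain ⟨z, hz, ex⟩ := nt_center_of_ad hx
  obtain ⟨z', hz', ey⟩ := nt_center_of_ad hy
  refine ⟨x' * y' * x'⁻¹ * y'⁻¹, ?_⟩
  show _ = m * S.ψ (x * y * x⁻¹ * y⁻¹) * m⁻¹
  have e : m * S.ψ (x * y * x⁻¹ * y⁻¹) * m⁻¹ = (m * S.ψ x * m⁻¹) * (m * S.ψ y * m⁻¹) * (m * S.ψ x * m⁻¹)⁻¹ *
      (m * S.ψ y * m⁻¹)⁻¹ := by
    simp only [map_mul, map_inv]
    group
  rw [e, ex, ey, nt_comm_center hz hz', map_mul, map_mul, map_mul, map_inv, map_inv]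

section
variable {I : Type} [Fintype I] [DecidableEq I] {c : I → Fin 7 → ℤ} {R : Gh k →* Matrix I I k}

theorem nt_stb_fix (hR : WRep c R) : S.Stb R (S.nt_fix R) := by
  refine ⟨fun m hm y hy x => ?_, fun y hy x => ?_⟩
  · obtain ⟨x', h⟩ := S.nt_norm (inv_mem hm) x
    rw [← mulVec_mul, show S.ψ x * m = m * (m⁻¹ * S.ψ x * m⁻¹⁻¹) by group, h, mulVec_mul, hy x']
  · rw [← S.k_σ_ψ x, ← S.nt_sv_mulVec hR, hy x]

end

/-- **NoFixV** -/
theorem nt_nofixV (hp : p ≠ 2) (h : S.NoFix) : S.NoFixV := by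
  intro y hy
  have h1 : S.nt_fix (rho k) = ⊥ := S.nt_white hp (S.nt_stb_fix wrep_V) fun x hx y hy =>
    (Mu.dd_eq_zero_iff x y).1 (h _ fun g => by rw [Mu.dd_equi (S.nt_two hp), V_apply, V_apply, hx g, hy g])
  exact (Submodule.eq_bot_iff _).1 h1 y hy

end Sit

end Cfsg.Agent.E7P
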