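import Cfsg.Agent.E7P.Nt.Stb
import Cfsg.Agent.E7P.Lie.Alc

/-!
# S5932: no stable toral subalgebra (helper9)

* `Sit.nt_toral`, `Sit.nf_tor`, `Sit.nf_tor'` : **NFT**;
* `Sit.nt_nofix_of`, `nt_cen_of`, `nt_ann_of` : it suffices to exclude nilpotent elements;
* `Sit.nt_nf5` : **NF5**, `Sit.nt_nk` : **NK**, `Sit.nt_expo5` (`p ≥ 5`).
-/

set_option autoImplicit false
set_option maxRecDepth 100000

namespace Cfsg.Agent.E7P

open Cfsg Cfsg.Lie Matrix Module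
open Cfsg.Agent.ChevalleyStructure.RootVec (rt)
open Cfsg.Agent.H943.E7V.Block (D1 rho)
open Cfsg.Agent.R2.T1 Cfsg.Agent.E7P.Kf
open Cfsg.Agent.R2.PX (del DD)
open Cfsg.Agent.E7P.La (Jd eqv wval)
open Cfsg.Agent.E7P.Lb (t3)

universe u v

namespace Kf

variable {K : Type u} [Field K]

/-- the values of the weights on `t3` -/
def nt_w3 (s : ℕ) : ℤ := ((List.range 7).map fun i => [3, 4, 6, 8, 6, 4, 2].getD i 0 * chevE8.cartan i s).sum

theorem nt_wval_t3 (a : D1) : wval (t3 K) a = (nt_w3 (nn a) : K) := by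
  rw [wval, nt_w3, sum7]
  push_cast
  refine Finset.sum_congr rfl fun i _ => ?_
  congr 1
  fin_cases i <;> simp [t3]

theorem nt_chk_w3 : ∀ s < 240, rt chevE8 s 7 = 1 → 3 ∣ nt_w3 s → mv 93 s = none := by decide +kernel

theorem nt_del_t3 {a : D1} (h : (nt_w3 (nn a) : K) = 0) : del K (tv (t3 K)) *ᵥ bs K a = 0 := by
  rw [La.del_tv, R2.PX.diag_bs, nt_wval_t3, h, zero_smul]

/-- the elements which fix the toral subalgebra pointwise -/
theorem nt_mem_T [Infinite K] (h2 : (2 : K) ≠ 0) {g x : Gh K} (h : ∀ l, adM K x *ᵥ (adM K g *ᵥ tv l) = adM K g *ᵥ tv l) :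
    ∃ c, x = g * Phi K c * g⁻¹ := by
  obtain ⟨c, hc⟩ := mem_T_of_diag (y := g⁻¹ * x * g) fun i j => Lb.diag_of_tv h2 fun l => by
    rw [R2.PX.del_equi h2, mulVec_mul, mulVec_mul, h, mulVec_inv]
  exact ⟨c, by rw [← hc]; group⟩

end Kf

namespace Sit

variable {p a b : ℕ} {F : Type u} {K : Type v} {k : Type u} [Field F] [Fintype F] [Field K] [Fintype K] [Field k]
  (S : Sit p a b F K k)

/-- `A` centralises no root element -/
theorem nt_root (hs : S.SSC) {g : Gh k} {r : ℕ} (hr : r < 126)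
    (h : ∀ x, rho k (S.ψ x) * (rho k g * NM k r * rho k g⁻¹) = rho k g * NM k r * rho k g⁻¹ * rho k (S.ψ x)) : False := by
  have := S.chark
  have h1 : rho k (g * xs k r 1 * g⁻¹) = 1 + rho k g * NM k r * rho k g⁻¹ := by
    rw [map_mul, map_mul, rho_xs' hr, one_smul, mul_add, mul_one, add_mul, La.rho_mul_inv]
  have h2 := S.ck hs (g * xs k r 1 * g⁻¹) (fun x => rho_injective (by
    rw [map_mul _ (S.ψ x), map_mul _ _ (S.ψ x), h1, mul_add, add_mul, h, mul_one, one_mul]))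
    (by rw [conj_pow, nt_xs_pow, mul_one, mul_inv_cancel])
  exact nt_xs_ne hr (by rwa [mul_inv_eq_one, mul_eq_left] at h2)

/-- the line of type `A₂ A₅` -/
theorem nt_line (hs : S.SSC) (hp : p = 3) {C : Submodule k (chevE7.Idx → k)} (hC : S.Stb (adM k) C) {g : Gh k}
    (h0 : adM k g *ᵥ tv (t3 k) ∈ C) (h1 : ∀ x ∈ C, ∃ c : k, x = c • adM k g *ᵥ tv (t3 k)) : False := by
  have := S.chark
  have hp2 : p ≠ 2 := by omega
  have h2 := S.nt_two hp2
  have h3 : ∀ n : ℤ, (n : k) = 0 ↔ 3 ∣ n := fun n => by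
    rw [CharP.intCast_eq_zero_iff k p, hp]
    rfl
  have hA : ∀ x, ∀ y ∈ nt_ker C, rho k (S.ψ x) *ᵥ y = y := by
    by_contra hne
    push Not at hne
    have h4 := S.pt hs wrep_V _ (S.nt_stb_ker hp2 hC) hne (g * xs k 93 1 * g⁻¹) (fun y hy => by
      have h5 := hy _ h0
      rw [← mulVec_inv' (rho k) g y, nt_del_rho h2] at h5
      have h6 : del k (tv (t3 k)) *ᵥ (rho k g⁻¹ *ᵥ y) = 0 := by rw [← mulVec_inv (rho k) g (_ *ᵥ _), h5, mulVec_zero]
      have h7 : NM k 93 *ᵥ (rho k g⁻¹ *ᵥ y) = 0 := by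
        funext i
        by_contra h7
        obtain ⟨j, c, h8, h9⟩ := NM_mulVec_ne h7
        have h10 := congrFun h6 j
        rw [La.del_tv, mulVec_diagonal, nt_wval_t3] at h10
        rw [nt_chk_w3 _ (nn_lt j) (rt_nn j) ((h3 _).1 ((mul_eq_zero.1 h10).resolve_right h9))] at h8
        cases h8
      rw [mulVec_mul, mulVec_mul, rho_xs' (by norm_num), one_smul, add_mulVec, one_mulVec, h7, add_zero, mulVec_inv'])
      (by rw [conj_pow, nt_xs_pow, mul_one, mul_inv_cancel])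
    exact nt_xs_ne (r := 93) (by norm_num) (by rwa [mul_inv_eq_one, mul_eq_left] at h4)
  have hW : ∀ s : D1, 3 ∣ nt_w3 (R2.T1.nn s) → rho k g *ᵥ bs k s ∈ nt_ker C := fun s hs x hx => by
    obtain ⟨c, rfl⟩ := h1 x hx
    rw [map_smul, smul_mulVec, nt_del_rho h2, nt_del_t3 ((h3 _).2 hs), mulVec_zero, smul_zero]
  let s : D1 := ⟨⟨206, by decide +kernel⟩, by decide +kernel⟩
  let s' : D1 := ⟨⟨196, by decide +kernel⟩, by decide +kernel⟩
  have h4 := R2.PX.DD_bs_root (F := k) (r := 78) (by norm_num) (a := s) (a' := s') (c := 1)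
    (show mv (125 - 78) 206 = some (196, 1) by decide +kernel)
  have h5 : 3 ∣ nt_w3 (R2.T1.nn (op s')) := by
    rw [← R2.PX.st_nn]
    show 3 ∣ nt_w3 (st 196).1
    decide +kernel
  refine S.nt_root hs (g := g) (r := 78) (by norm_num) fun x => ?_
  have h6 := Mu.DD_equi (S.ψ x) (V k g (bs k s)) (V k g (bs k (op s')))
  rw [V_apply (S.ψ x), V_apply (S.ψ x), V_apply g, V_apply g, hA x _ (hW s (show 3 ∣ nt_w3 206 by decide +kernel)),
    hA x _ (hW _ h5), ← V_apply, ← V_apply, Mu.DD_conj, h4, mul_smul_comm, smul_mul_assoc, smul_mul_assoc,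
    mul_smul_comm] at h6
  exact (smul_right_injective _ (mul_ne_zero (mul_ne_zero (neg_ne_zero.2 h2) (by rw [Int.cast_one]; exact one_ne_zero))
    (cast_ne (ep_sq _))) h6).symm

/-- **NFT** for subspaces of a toral subalgebra -/
theorem nt_toral (hp : p ≠ 2) (hs : S.SSC) {C : Submodule k (chevE7.Idx → k)} (hC : S.Stb (adM k) C) {g : Gh k}
    (hg : ∀ x ∈ C, ∃ l, x = adM k g *ᵥ tv l) : C = ⊥ := by
  have := S.closed
  have := S.chark
  have h2 := S.nt_two hp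
  by_contra hne
  let C0 : Submodule k (Fin 7 → k) :=
    { carrier := {l | adM k g *ᵥ tv l ∈ C}
      zero_mem' := by
        show adM k g *ᵥ tv 0 ∈ C
        rw [← zero_smul k (0 : Fin 7 → k), Lb.tv_smul, zero_smul, mulVec_zero]
        exact zero_mem _
      add_mem' := fun {l l'} h h' => by
        show adM k g *ᵥ tv (l + l') ∈ C
        rw [← sub_neg_eq_add, ← neg_one_smul k l', Lb.tv_sub, Lb.tv_smul, mulVec_sub, mulVec_smul]
        exact sub_mem h (C.smul_mem _ h')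
      smul_mem' := fun t l h => by
        show adM k g *ᵥ tv (t • l) ∈ C
        rw [Lb.tv_smul, mulVec_smul]
        exact C.smul_mem _ h }
  obtain ⟨x0, hx0, h0⟩ := (Submodule.ne_bot_iff C).1 hne
  obtain ⟨l0, rfl⟩ := hg x0 hx0
  have hcen := S.nt_stb_cen hp hC
  obtain ⟨h3, w, hw⟩ := Lb.tor7 S.prime h2 (C := C0) ((Submodule.ne_bot_iff _).2 ⟨l0, hx0, by
      rintro rfl
      exact h0 (by rw [← zero_smul k (0 : Fin 7 → k), Lb.tv_smul, zero_smul, mulVec_zero])⟩)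
    (Lb.rk7_of_int fun m hm => S.nt hp hs (Fx (adM k) (nt_cen C)) g m (S.nt_Fx_σ wrep_L hcen) (S.nt_Fx_M hcen)
      (fun x hx => nt_mem_T h2 fun l => hx _ fun y hy => by
        obtain ⟨l', rfl⟩ := hg y hy
        exact (eqv h2).cm g (La.cm_tv l l'))
      fun z x hx => by
        rw [mulVec_mul, mulVec_mul]
        refine (congrArg _ (funext fun i => ?_)).trans (mulVec_inv' (adM k) g x)
        rw [wrep_L.tor, mulVec_diagonal]
        by_cases e : (adM k g⁻¹ *ᵥ x) i = 0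
        · rw [e, mul_zero]
        rcases i with i | r
        · rw [ac_inl, ch_zero, Units.val_one, one_mul]
        · rw [ac_inr, ch_lam, hm r r.2 fun l hl => ?_, zpow_zero, Units.val_one, one_mul]
          have h4 := (eqv h2).cm g⁻¹ (nt_cm_symm (hx _ hl))
          rw [mulVec_inv] at h4
          exact nt_cm_tv.1 h4 r e)
  have h4 : ∀ x ∈ C, ∃ c : k, x = c • adM k (g * (nL k w)⁻¹) *ᵥ tv (t3 k) := fun x hx => by
    obtain ⟨l, rfl⟩ := hg x hx
    obtain ⟨c, hc⟩ := hw l hx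
    exact ⟨c, by rw [mulVec_mul, ← mulVec_smul, ← mulVec_smul, ← hc, mulVec_inv]⟩
  refine S.nt_line hs h3 hC ?_ h4
  obtain ⟨c, hc⟩ := h4 _ hx0
  have h5 : c ≠ 0 := by
    rintro rfl
    exact h0 (hc.trans (zero_smul _ _))
  rw [hc] at hx0
  exact (C.smul_mem_iff h5).1 hx0

/-- **NFT** -/
theorem nf_tor (hp : p ≠ 2) (hs : S.SSC) {C : Submodule k (chevE7.Idx → k)} (hC : S.Stb (adM k) C)
    (hb : ∀ x ∈ C, ∀ y ∈ C, ∀ z, del k z = del k x * del k y - del k y * del k x → z ∈ C)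
    (hj : ∀ x ∈ C, ∀ s z, Jd x s z → z ∈ C) (hn : ∀ z ∈ C, IsNilpotent (del k z) → z = 0) : C = ⊥ := by
  have := S.closed
  obtain ⟨g, hg⟩ := La.toral (eqv (S.nt_two hp)) C hb hj hn
  exact S.nt_toral hp hs hC hg

/-- **NFT**, with the bracket `Br.br` -/
theorem nf_tor' (hp : p ≠ 2) (hs : S.SSC) {C : Submodule k (chevE7.Idx → k)} (hC : S.Stb (adM k) C)
    (hb : ∀ x ∈ C, ∀ y ∈ C, Br.br k x y ∈ C)
    (hj : ∀ x ∈ C, ∀ s z, Jd x s z → z ∈ C) (hn : ∀ z ∈ C, IsNilpotent (del k z) → z = 0) : C = ⊥ :=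
  S.nf_tor hp hs hC (fun x hx y hy z hz => by
    rw [Mu.del_injective (hz.trans (Br.del_br x y).symm)]
    exact hb x hx y hy) hj hn

/-- the fixed points of `A` vanish if they contain no nilpotent element -/
theorem nt_nofix_of (hp : p ≠ 2) (hs : S.SSC)
    (hn : ∀ z, (∀ x, adM k (S.ψ x) *ᵥ z = z) → IsNilpotent (del k z) → z = 0) : S.NoFix := by
  have h2 := S.nt_two hp
  have h1 := S.nf_tor' hp hs (S.nt_stb_fix wrep_L) (fun x hx y hy g => by rw [Br.adM_br h2, hx g, hy g])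
    (fun x hx s z h g => (h.fix (eqv h2) (hx g)).2) hn
  exact fun y hy => (Submodule.eq_bot_iff _).1 h1 y hy

/-- centralisers vanish if they contain no nilpotent element -/
theorem nt_cen_of (hp : p ≠ 2) (hs : S.SSC) {W : Submodule k (chevE7.Idx → k)} (hW : S.Stb (adM k) W)
    (hn : ∀ z ∈ nt_cen W, IsNilpotent (del k z) → z = 0) : nt_cen W = ⊥ :=
  S.nf_tor hp hs (S.nt_stb_cen hp hW) (fun _ hx _ hy _ => nt_cen_br hx hy)
    (fun _ hx _ _ => nt_cen_jd (S.nt_two hp) hx) hn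

/-- annihilators vanish if they contain no nilpotent element -/
theorem nt_ann_of (hp : p ≠ 2) (hs : S.SSC) {W : Submodule k (D1 → k)} (hW : S.Stb (rho k) W)
    (hn : ∀ z ∈ nt_ann W, IsNilpotent (del k z) → z = 0) : nt_ann W = ⊥ :=
  S.nf_tor hp hs (S.nt_stb_ann hp hW) (fun _ hx _ hy _ => nt_ann_br hx hy)
    (fun _ hx _ _ => nt_ann_jd (S.nt_two hp) hx) hn

include S in
/-- the optimal parabolic subgroup of a nilpotent element -/
theorem nt_kempf (hp : p ≠ 2) {z : chevE7.Idx → k} (h0 : z ≠ 0) (hz : IsNilpotent (del k z)) :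
    ∃ (g : Gh k) (β : E), β ≠ 0 ∧ Dom β ∧ Opt bf (St ac (adM k) {z}) g β ∧
      ∀ y : Gh k, adM k y *ᵥ z = z → g⁻¹ * y * g ∈ Pl k β := by
  have := S.closed
  obtain ⟨g0, z0, h1, e⟩ := La.nil (eqv (S.nt_two hp)) hz
  obtain ⟨g, β, h3, h4, h5, h6, -⟩ := wrep_L.kempf (X := {z}) ⟨⟨z, rfl, h0⟩, g0, rho1, by
    rintro _ rfl i hi
    rw [e, mulVec_inv] at hi
    exact h1 i hi⟩
  refine ⟨g, β, h3, h4, h5, fun y hy => h6 y ?_⟩
  rintro v rfl
  show adM k y⁻¹ *ᵥ v = v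
  conv_lhs => rw [← hy]
  exact mulVec_inv _ _ _

include S in
theorem nt_eps (h5 : 5 ≤ p) : EPS k :=
  have := S.chark
  Br.eps (Br.twelve_ne S.prime h5)

/-- **NF5** -/
theorem nt_nf5 (h5 : 5 ≤ p) (hs : S.SSC) : S.NoFix := by
  have := S.chark
  refine S.nt_nofix_of (by omega) hs fun z hz hn => ?_
  by_contra h0
  obtain ⟨g, β, h1, -, h3, h4⟩ := S.nt_kempf (by omega) h0 hn
  obtain ⟨y, hy, h6, -, h7⟩ := S.nt_eps h5 β (adM k g⁻¹ *ᵥ z) (Br.Ge_le_Gt (bf_pd.pos β h1) (Br.Opt_Ge h3 rfl))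
    fun e => h0 (by rw [← mulVec_inv' (adM k) g z, e, mulVec_zero])
  obtain ⟨n, h8, h9⟩ := Lb.exists_pow_p S.prime hy h6
  have h10 := S.ck hs (g * y ^ n * g⁻¹) (fun x => by
    have h11 : Commute (g⁻¹ * S.ψ x * g) y := h7 _ (h4 _ (hz x)) (by rw [mulVec_mul, mulVec_mul, mulVec_inv', hz x])
    calc _ = g * (g⁻¹ * S.ψ x * g * y ^ n) * g⁻¹ := by group
      _ = _ := by rw [(h11.pow_right n).eq]; group) (by rw [conj_pow, h9, mul_one, mul_inv_cancel])
  exact h8 (by rwa [mul_inv_eq_one, mul_eq_left] at h10)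

include S in
/-- a non-zero nilpotent element gives an element of order `p` which fixes its centraliser -/
theorem nt_eps_nil (h5 : 5 ≤ p) {z : chevE7.Idx → k} (h0 : z ≠ 0) (hz : IsNilpotent (del k z)) :
    ∃ c : Gh k, c ≠ 1 ∧ c ^ p = 1 ∧ ∀ x, Cm z x → adM k c *ᵥ x = x := by
  have := S.closed
  have := S.chark
  have hq := eqv (S.nt_two (show p ≠ 2 by omega))
  obtain ⟨g, z0, h1, rfl⟩ := La.nil hq hz
  obtain ⟨y, hy, h6, h7, -⟩ := S.nt_eps h5 rho1 z0 h1 fun e => h0 (by rw [e, mulVec_zero])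
  obtain ⟨n, h8, h9⟩ := Lb.exists_pow_p S.prime hy h6
  refine ⟨g * y ^ n * g⁻¹, fun e => h8 (by rwa [mul_inv_eq_one, mul_eq_left] at e),
    by rw [conj_pow, h9, mul_one, mul_inv_cancel], fun x hx => ?_⟩
  have h2 := hq.cm g⁻¹ hx
  rw [mulVec_inv] at h2
  rw [mulVec_mul, mulVec_mul, pow_mem (S := Fx (adM k) (nt_cen (Submodule.span k {z0}))) (fun x hx => h7 x
    (nt_cm_symm (hx z0 (Submodule.mem_span_singleton_self z0)))) n _ (fun w hw => by
      obtain ⟨t, rfl⟩ := Submodule.mem_span_singleton.1 hw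
      show del k _ * del k (t • z0) = del k (t • z0) * del k _
      rw [map_smul, mul_smul_comm, smul_mul_assoc, show del k z0 * _ = _ from h2]), mulVec_inv']

/-- **NK** -/
theorem nt_nk (h5 : 5 ≤ p) (hs : S.SSC) {W : Submodule k (chevE7.Idx → k)} (hW : S.Stb (adM k) W) (h0 : W ≠ ⊥) :
    nt_cen W = ⊥ := by
  refine S.nt_cen_of (by omega) hs hW fun z hz hn => ?_
  by_contra hne
  obtain ⟨c, h1, h2, h3⟩ := S.nt_eps_nil h5 hne hn
  obtain ⟨y, hy, h4⟩ := (Submodule.ne_bot_iff W).1 h0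
  obtain ⟨x, hx⟩ := not_forall.1 fun h => h4 (S.nt_nf5 h5 hs y h)
  exact h1 (S.pt hs wrep_L W hW ⟨x, y, hy, hx⟩ c (fun w hw => h3 w (hz w hw)) h2)

/-- **EXPO** for `p ≥ 5` and the Lie algebra -/
theorem nt_expo5 (h5 : 5 ≤ p) (hs : S.SSC) {W : Submodule k (chevE7.Idx → k)} (hW : S.Stb (adM k) W) (h0 : W ≠ ⊥) :
    ∃ N : ℕ, (N : k) ≠ 0 ∧ ∀ x, (∀ y ∈ W, adM k x *ᵥ y = y) → x ^ N = 1 := by
  obtain ⟨y, hy, h4⟩ := (Submodule.ne_bot_iff W).1 h0
  obtain ⟨x, hx⟩ := not_forall.1 fun h => h4 (S.nt_nf5 h5 hs y h)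
  exact S.nt_expo_L (by omega) (S.pt hs wrep_L W hW ⟨x, y, hy, hx⟩) (S.nt_nk h5 hs hW h0)

/-- **EXPO** for `V` -/
theorem nt_expoV (hp : p ≠ 2) (hs : S.SSC) (hf : S.NoFix) {W : Submodule k (D1 → k)} (hW : S.Stb (rho k) W) (h0 : W ≠ ⊥)
    (ht : nt_ann W = ⊥) : ∃ N : ℕ, (N : k) ≠ 0 ∧ ∀ x, (∀ y ∈ W, rho k x *ᵥ y = y) → x ^ N = 1 := by
  obtain ⟨y, hy, h4⟩ := (Submodule.ne_bot_iff W).1 h0
  obtain ⟨x, hx⟩ := not_forall.1 fun h => h4 (S.nt_nofixV hp hf y h)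
  exact S.nt_expo_V hp (S.pt hs wrep_V W hW ⟨x, y, hy, hx⟩) ht

end Sit

end Cfsg.Agent.E7P
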