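import Cfsg.Agent.E7P.Nt.Nft
import Cfsg.Agent.E7P.J1v.Nil

/-!
# S5932: the basic facts for all odd primes (helper9)

* `Kf.nt_del_DD` : the Lie algebra acts by derivations on `DD`;
* `Sit.nofix`, `Sit.nofixV`, `Sit.ann`, `Sit.expoV`, `Sit.irr` : all from `p ≠ 2` and `SSC`.
-/

set_option autoImplicit false
set_option maxRecDepth 100000

namespace Cfsg.Agent.E7P

open Cfsg Cfsg.Lie Matrix Module
open Cfsg.Agent.H943.E7V.Block (D1 rho)
open Cfsg.Agent.R2.T1 Cfsg.Agent.E7P.Kf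
open Cfsg.Agent.R2.PX (del DD dd DD_add_left DD_add_right DD_smul_left DD_smul_right DD_zero_left DD_zero_right)

universe u v

namespace Kf

variable {K : Type u} [Field K]

/-- **`DD` is invariant under the Lie algebra** -/
theorem nt_del_DD (z : chevE7.Idx → K) (x y : D1 → K) :
    del K z * DD K x y - DD K x y * del K z = DD K (del K z *ᵥ x) y + DD K x (del K z *ᵥ y) := by
  let T : Submodule K (Matrix D1 D1 K) :=
    { carrier := {Z | ∀ x y, Z * DD K x y - DD K x y * Z = DD K (Z *ᵥ x) y + DD K x (Z *ᵥ y)}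
      zero_mem' := fun x y => by rw [zero_mulVec, zero_mulVec, DD_zero_left, DD_zero_right, zero_mul, mul_zero, sub_zero, add_zero]
      add_mem' := fun {A B} hA hB x y => by
        rw [add_mulVec, add_mulVec, DD_add_left, DD_add_right, add_add_add_comm, ← hA, ← hB]
        noncomm_ring
      smul_mem' := fun t A hA x y => by
        rw [smul_mulVec, smul_mulVec, DD_smul_left, DD_smul_right, ← smul_add, ← hA, smul_mul_assoc, mul_smul_comm, smul_sub] }
  have hN : ∀ r < 126, NM K r ∈ T := fun r hr x y => by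
    rw [← (Mu.field_ident hr x y).1, add_sub_cancel_right]
  have hb : ∀ A ∈ T, ∀ B ∈ T, A * B - B * A ∈ T := fun A hA B hB x y => by
    have h1 : (A * B - B * A) * DD K x y - DD K x y * (A * B - B * A) =
        (A * (B * DD K x y - DD K x y * B) - (B * DD K x y - DD K x y * B) * A) -
          (B * (A * DD K x y - DD K x y * A) - (A * DD K x y - DD K x y * A) * B) := by noncomm_ring
    have h2 : ∀ A B C : Matrix D1 D1 K, A * (B + C) - (B + C) * A = (A * B - B * A) + (A * C - C * A) := fun A B C => by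
      noncomm_ring
    rw [h1, hA, hB, h2, h2, hA, hA, hB, hB, sub_mulVec, sub_mulVec, ← mulVec_mulVec, ← mulVec_mulVec, ← mulVec_mulVec,
      ← mulVec_mulVec, sub_eq_add_neg (A *ᵥ _), sub_eq_add_neg (A *ᵥ _), DD_add_left, DD_add_right, R2.PX.DD_neg_left,
      R2.PX.DD_neg_right]
    abel
  have hH : ∀ i : Fin 7, R2.PX.Hi K i ∈ T := fun i => by
    have h1 := simple_lt7 i i.2
    rw [← neg_mem_iff, ← Lb.Hd_neg, ← R2.PX.NM_comm_neg (by omega)]
    exact hb _ (hN _ (by omega)) _ (hN _ (by omega))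
  have h : del K z ∈ T := by
    rw [R2.PX.del_apply]
    exact add_mem (Submodule.sum_mem _ fun i _ => T.smul_mem _ (hH i)) (Submodule.sum_mem _ fun r _ => T.smul_mem _ (hN r r.2))
  exact h x y

/-- the span of the elements `dd x y` -/
def nt_dd (W : Submodule K (D1 → K)) : Submodule K (chevE7.Idx → K) := Submodule.span K {z | ∃ x ∈ W, ∃ y ∈ W, z = dd x y}

theorem nt_dd_mem {W : Submodule K (D1 → K)} {x y : D1 → K} (hx : x ∈ W) (hy : y ∈ W) : dd x y ∈ nt_dd W :=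
  Submodule.subset_span ⟨x, hx, y, hy, rfl⟩

theorem nt_ann_le (W : Submodule K (D1 → K)) : nt_ann W ≤ nt_cen (nt_dd W) := by
  intro z hz w hw
  refine nt_cm_symm ((show nt_dd W ≤ nt_cen (Submodule.span K {z}) from Submodule.span_le.2 ?_) hw z
    (Submodule.mem_span_singleton_self z))
  rintro _ ⟨x, hx, y, hy, rfl⟩ w hw
  obtain ⟨t, rfl⟩ := Submodule.mem_span_singleton.1 hw
  have h1 := nt_del_DD (t • z) x y
  rw [(nt_ann W).smul_mem t hz x hx, (nt_ann W).smul_mem t hz y hy, DD_zero_left, DD_zero_right, add_zero, sub_eq_zero,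
    ← R2.PX.del_dd] at h1
  exact h1.symm

end Kf

namespace Sit

variable {p a b : ℕ} {F : Type u} {K : Type v} {k : Type u} [Field F] [Fintype F] [Field K] [Fintype K] [Field k]
  (S : Sit p a b F K k)

theorem nt_sv_dd (x y : D1 → k) : S.sv (dd x y) = dd (S.sv x) (S.sv y) := Mu.del_injective (by
  rw [S.nt_del_sv, R2.PX.del_dd, R2.PX.del_dd]
  exact (Mu.DD_emb S.s x y).symm)

theorem nt_stb_dd (hp : p ≠ 2) {W : Submodule k (D1 → k)} (hW : S.Stb (rho k) W) : S.Stb (adM k) (nt_dd W) := by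
  refine ⟨fun m hm z hz => ?_, fun z hz => ?_⟩
  · refine (show nt_dd W ≤ (nt_dd W).comap (toLin' (adM k m)) from Submodule.span_le.2 ?_) hz
    rintro _ ⟨x, hx, y, hy, rfl⟩
    show adM k m *ᵥ dd x y ∈ nt_dd W
    rw [Mu.dd_equi (S.nt_two hp)]
    exact nt_dd_mem (hW.1 m hm x hx) (hW.1 m hm y hy)
  · induction hz using Submodule.span_induction with
    | mem z hz =>
      obtain ⟨x, hx, y, hy, rfl⟩ := hz
      rw [S.nt_sv_dd]
      exact nt_dd_mem (hW.2 x hx) (hW.2 y hy)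
    | zero => rw [S.nt_sv_zero]; exact zero_mem _
    | add x y _ _ hx hy =>
      rw [show S.sv (x + y) = S.sv x + S.sv y from funext fun _ => map_add _ _ _]
      exact add_mem hx hy
    | smul t x _ hx =>
      rw [show S.sv (t • x) = S.s t • S.sv x from funext fun _ => map_mul _ _ _]
      exact Submodule.smul_mem _ _ hx

theorem nt_dd_ne (hp : p ≠ 2) {W : Submodule k (D1 → k)} (hW : S.Stb (rho k) W) (h0 : W ≠ ⊥) : nt_dd W ≠ ⊥ := fun h =>
  h0 (S.nt_white hp hW fun x hx y hy => (Mu.dd_eq_zero_iff x y).1 ((Submodule.eq_bot_iff _).1 h _ (nt_dd_mem hx hy)))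

theorem nt_jvNFT (hp : p ≠ 2) (hs : S.SSC) : S.JvNFT := fun _ h1 h2 h3 h4 =>
  S.nf_tor hp hs h1 h2 (fun x hx s z h => (h3 x hx s z h).2) h4

include S in
theorem nt_cases (hp : p ≠ 2) : p = 3 ∨ 5 ≤ p := by
  have h1 := S.prime
  have h2 := h1.two_le
  by_cases h4 : p = 4
  · rw [h4] at h1
    exact absurd h1 (by norm_num)
  omega

/-- **NoFix** -/
theorem nofix (hp : p ≠ 2) (hs : S.SSC) : S.NoFix :=
  (S.nt_cases hp).elim (fun h => S.jv_nofix h (S.ck hs) (S.nt_jvNFT hp hs)) fun h => S.nt_nf5 h hs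

/-- **NoFixV** -/
theorem nofixV (hp : p ≠ 2) (hs : S.SSC) : S.NoFixV := S.nt_nofixV hp (S.nofix hp hs)

/-- **ANN** : the annihilator of a non-zero stable subspace of `V` vanishes -/
theorem ann (hp : p ≠ 2) (hs : S.SSC) {W : Submodule k (D1 → k)} (hW : S.Stb (rho k) W) (h0 : W ≠ ⊥) : nt_ann W = ⊥ := by
  rcases S.nt_cases hp with h | h
  · exact (Submodule.eq_bot_iff _).2 fun z hz =>
      S.jv_ann3 h (S.ck hs) (S.pt hs wrep_V) (S.nt_jvNFT hp hs) hW h0 hz
  · exact eq_bot_iff.2 ((nt_ann_le W).trans (S.nt_nk h hs (S.nt_stb_dd hp hW) (S.nt_dd_ne hp hW h0)).le)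

/-- **EXPO** for every non-zero stable subspace of `V` -/
theorem expoV (hp : p ≠ 2) (hs : S.SSC) {W : Submodule k (D1 → k)} (hW : S.Stb (rho k) W) (h0 : W ≠ ⊥) :
    ∃ N : ℕ, (N : k) ≠ 0 ∧ ∀ x, (∀ y ∈ W, rho k x *ᵥ y = y) → x ^ N = 1 :=
  S.nt_expoV hp hs (S.nofix hp hs) hW h0 (S.ann hp hs hW h0)

/-- pointwise stabilisers of non-zero stable subspaces have no element of order `p` -/
theorem ptV (hp : p ≠ 2) (hs : S.SSC) {W : Submodule k (D1 → k)} (hW : S.Stb (rho k) W) (h0 : W ≠ ⊥) {c : Gh k}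
    (hc : ∀ y ∈ W, rho k c *ᵥ y = y) (h : c ^ p = 1) : c = 1 := by
  obtain ⟨y, hy, h4⟩ := (Submodule.ne_bot_iff W).1 h0
  obtain ⟨x, hx⟩ := not_forall.1 fun h => h4 (S.nofixV hp hs y h)
  exact S.pt hs wrep_V W hW ⟨x, y, hy, hx⟩ c hc h

theorem ptL (hp : p ≠ 2) (hs : S.SSC) {W : Submodule k (chevE7.Idx → k)} (hW : S.Stb (adM k) W) (h0 : W ≠ ⊥) {c : Gh k}
    (hc : ∀ y ∈ W, adM k c *ᵥ y = y) (h : c ^ p = 1) : c = 1 := by
  obtain ⟨y, hy, h4⟩ := (Submodule.ne_bot_iff W).1 h0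
  obtain ⟨x, hx⟩ := not_forall.1 fun h => h4 (S.nofix hp hs y h)
  exact S.pt hs wrep_L W hW ⟨x, y, hy, hx⟩ c hc h

/-- **IRR** : `A` lies in no proper parabolic subgroup -/
theorem irr (hp : p ≠ 2) (hs : S.SSC) {g : Gh k} {β : E} (hg : ∀ x, g⁻¹ * S.ψ x * g ∈ Pl k β) : β = 0 := by
  by_contra h0
  obtain ⟨l, hl⟩ := exists_dom β
  refine S.irr_odd hp (S.nofix hp hs) (g := g * (nL k l)⁻¹) (wL_ne h0) hl fun x => ?_
  have h1 := nL_conj_Pl l (hg x)
  rwa [show nL k l * (g⁻¹ * S.ψ x * g) * (nL k l)⁻¹ = (g * (nL k l)⁻¹)⁻¹ * S.ψ x * (g * (nL k l)⁻¹) by group] at h1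

end Sit

end Cfsg.Agent.E7P
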