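import Cfsg.Agent.E7P.Nt.White
import Cfsg.Agent.E7P.Frm.Tor

/-!
# S5932: no normalised torus (helper9)

* `Kf.nt_wZ`, `Kf.nt_cw` : the Weyl group on the coweights, twice a coweight as a cocharacter;
* `Kf.nt_conj_lam` : the Weyl group on the cocharacters;
* `Sit.nt_base`, `Sit.nt_base'` : abelian subgroups which are normalised by `M` and `σ`;
* `Sit.nt` : **NT**.
-/

set_option autoImplicit false
set_option maxRecDepth 100000

namespace Cfsg.Agent.E7P

open Cfsg Cfsg.Lie Matrix Module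
open Cfsg.Agent.H943.E7V.Block (D1 rho)
open Cfsg.Agent.R2.T1 Cfsg.Agent.E7P.Kf
open Cfsg.Agent.R2.H9.E6 (pq pq_surjective psl_noncomm)

universe u v

namespace Kf

/-- the Weyl group on the integral vectors -/
def nt_wZ (l : List (Fin 7)) : Module.End ℤ (Fin 7 → ℤ) :=
  (l.map fun i => 1 - (LinearMap.proj i : (Fin 7 → ℤ) →ₗ[ℤ] ℤ).smulRight (rc (chevE7.simple i))).prod

theorem nt_cv_wZ (l : List (Fin 7)) (c : Fin 7 → ℤ) : cv (nt_wZ l c) = wL l (cv c) := by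
  induction l with
  | nil => rfl
  | cons i l ih =>
    rw [wL_cons, ← ih, sr_cv]
    rfl

/-- twice a coweight, in the basis of the simple coroots -/
def nt_cw (ζ : Fin 7 → ℤ) : Fin 7 → ℤ := fun i => ∑ j : Fin 7, ζ j * iC j i

theorem nt_cw_add (ζ η : Fin 7 → ℤ) : nt_cw (ζ + η) = nt_cw ζ + nt_cw η := by
  funext i
  simp only [nt_cw, Pi.add_apply, add_mul, Finset.sum_add_distrib]

theorem nt_cw_smul (n : ℤ) (ζ : Fin 7 → ℤ) : nt_cw (n • ζ) = n • nt_cw ζ := by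
  funext i
  simp only [nt_cw, Pi.smul_apply, smul_eq_mul, Finset.mul_sum, mul_assoc]

theorem nt_bf_cw (ζ c : Fin 7 → ℤ) : ((∑ i, c i * nt_cw ζ i : ℤ) : ℝ) = 2 * bf (cv ζ) (cv c) := by
  rw [bf_def]
  simp only [nt_cw, cv, Finset.mul_sum]
  push_cast
  rw [Finset.sum_comm]
  refine Finset.sum_congr rfl fun j _ => Finset.sum_congr rfl fun i _ => ?_
  ring

theorem nt_lE_cw (ζ : Fin 7 → ℤ) : lE (nt_cw ζ) = (2 : ℝ) • cv ζ := eq_of_bf_wv fun s => by
  rw [wv, bf_lE, nt_bf_cw, map_smul, LinearMap.smul_apply, smul_eq_mul]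

theorem nt_cw_root (ζ : Fin 7 → ℤ) {r : ℕ} (hr : r < 126) : ∑ i, rc r i * nt_cw ζ i = 2 * pc r ζ := by
  have h := nt_bf_cw ζ (rc r)
  rw [show cv (rc r) = rv r from rfl, bf_cv_rv _ hr] at h
  exact_mod_cast h

theorem nt_pc_simple (i : Fin 7) (ζ : Fin 7 → ℤ) : pc (chevE7.simple i) ζ = ζ i := by
  have h := bf_cv_rv ζ (simple_lt7 i i.2)
  rw [show rv (chevE7.simple i) = al i from rfl, bf_al] at h
  exact (Int.cast_injective (α := ℝ) h).symm

theorem nt_lE_inj {l m : Fin 7 → ℤ} (h : lE l = lE m) : l = m := by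
  funext i
  have h1 := bf_lE l (Pi.single i 1)
  rw [h, bf_lE] at h1
  have h2 := Int.cast_injective (α := ℝ) h1
  simpa [Pi.single_apply] using h2.symm

/-- the labels of a cocharacter -/
def nt_lb (l : Fin 7 → ℤ) : Fin 7 → ℤ := ∑ i, l i • rc (chevE7.simple i)

theorem nt_cv_lb (l : Fin 7 → ℤ) : cv (nt_lb l) = lE l := by
  rw [nt_lb, cv_sum, lE]
  exact Finset.sum_congr rfl fun i _ => cv_zsmul _ _

theorem nt_lE_smul (n : ℤ) (l : Fin 7 → ℤ) : lE (n • l) = (n : ℝ) • lE l := by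
  simp only [lE, Pi.smul_apply, smul_eq_mul, Int.cast_mul, Finset.smul_sum, smul_smul]

theorem nt_cw_lb (l : Fin 7 → ℤ) : nt_cw (nt_lb l) = (2 : ℤ) • l := nt_lE_inj (by
  rw [nt_lE_cw, nt_cv_lb, nt_lE_smul, Int.cast_ofNat])

variable {K : Type u} [Field K]

theorem nt_lam_add (l m : Fin 7 → ℤ) (z : Kˣ) : lam (l + m) z = lam l z * lam m z := funext fun _ => zpow_add _ _ _

theorem nt_lam_smul (n : ℤ) (l : Fin 7 → ℤ) (z : Kˣ) : lam (n • l) z = lam l (z ^ n) :=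
  funext fun _ => zpow_mul _ _ _

theorem nt_lam_neg (l : Fin 7 → ℤ) (z : Kˣ) : lam (-l) z = (lam l z)⁻¹ := funext fun _ => zpow_neg _ _

theorem nt_Phi_ext {s t : Fin chevE7.rank → Kˣ} (h : ∀ i, ch (wc i) s = ch (wc i) t) : Phi K s = Phi K t := by
  apply rho_injective
  rw [wrep_V.tor, wrep_V.tor]
  simp only [h]

/-- the values of the weights on a conjugate -/
theorem nt_ch_conj [Infinite K] (l : List (Fin 7)) {s t : Fin chevE7.rank → Kˣ}
    (h : nL K l * Phi K s * (nL K l)⁻¹ = Phi K t) (i : D1) : ∃ j, wv i = wL l (wv j) ∧ ch (wc i) t = ch (wc j) s := by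
  obtain ⟨j, hj⟩ := exists_ne (dualR (rho K)) (nL K l)⁻¹ i
  rw [dualR_apply, inv_inv, transpose_apply] at hj
  refine ⟨j, wrep_V.mon_nL l i j hj, ?_⟩
  have h3 := congrFun (congrFun (congrArg (rho K) (mul_inv_eq_iff_eq_mul.1 h)) i) j
  rw [map_mul, map_mul, wrep_V.tor, wrep_V.tor, mul_diagonal, diagonal_mul, mul_comm] at h3
  exact (Units.ext (mul_right_cancel₀ hj h3)).symm

/-- **the Weyl group on the cocharacters** -/
theorem nt_conj_lam [Infinite K] (l : List (Fin 7)) {m m' : Fin 7 → ℤ} (h : lE m' = wL l (lE m)) (z : Kˣ) :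
    nL K l * Phi K (lam m z) * (nL K l)⁻¹ = Phi K (lam m' z) := by
  obtain ⟨t, ht⟩ := nL_conj_Phi (K := K) l (lam m z)
  rw [ht]
  refine nt_Phi_ext fun i => ?_
  obtain ⟨j, h1, h2⟩ := nt_ch_conj l ht i
  rw [h2, ch_lam, ch_lam]
  congr 1
  refine Int.cast_injective (α := ℝ) ?_
  rw [← bf_lE, ← bf_lE, h, show cv (wc i) = wv i from rfl, h1, wL_iso]
  rfl

theorem nt_center_cw (ζ : Fin 7 → ℤ) (z : Kˣ) :
    Phi K (lam (nt_cw ζ) z) ∈ Subgroup.center (Gh K) ↔ ∀ i, z ^ (2 * ζ i) = 1 := by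
  have key : ∀ r < 126, ∏ i : Fin chevE7.rank, lam (nt_cw ζ) z i ^ chevE7.cartan i r = z ^ (2 * pc r ζ) := fun r hr => by
    rw [← nt_cw_root ζ hr, ← ch_lam]
    rfl
  rw [isPhi.mem_iff]
  refine ⟨fun h i => ?_, fun h r hr => ?_⟩
  · rw [← nt_pc_simple i ζ, ← key _ (simple_lt7 i i.2)]
    exact h _ (simple_lt7 i i.2)
  · rw [key r hr, pc, Finset.mul_sum, ← H129.StCover.prod_zpow_sum]
    refine Finset.prod_eq_one fun i _ => ?_
    rw [mul_left_comm, mul_comm, _root_.zpow_mul, h, _root_.one_zpow]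

theorem nt_exists_root [IsAlgClosed K] {N : ℕ} (hN : (N : K) ≠ 0) : ∃ z : Kˣ, IsPrimitiveRoot z N := by
  have : NeZero (N : K) := ⟨hN⟩
  have : NeZero N := ⟨fun h => hN (by rw [h, Nat.cast_zero])⟩
  obtain ⟨z, hz⟩ := HasEnoughRootsOfUnity.exists_primitiveRoot K N
  exact ⟨_, hz.isUnit_unit (NeZero.ne N)⟩

theorem nt_exists_pow [IsAlgClosed K] {N : ℕ} (hN : 0 < N) (z : Kˣ) : ∃ y : Kˣ, y ^ N = z := by
  obtain ⟨y, hy⟩ := IsAlgClosed.exists_pow_nat_eq (z : K) hN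
  have h0 : y ≠ 0 := by
    rintro rfl
    exact z.ne_zero (by rw [← hy, zero_pow hN.ne'])
  exact ⟨Units.mk0 y h0, Units.ext hy⟩

/-- periodic points -/
theorem nt_period (l : List (Fin 7)) (ζ : Fin 7 → ℤ) : ∃ m, 0 < m ∧ (nt_wZ l ^ m) ζ = ζ := by
  have h1 : ∀ n : ℕ, ∃ l', cv ((nt_wZ l ^ n) ζ) = wL l' (cv ζ) := by
    intro n
    induction n with
    | zero => exact ⟨[], rfl⟩
    | succ n ih =>
      obtain ⟨l', h⟩ := ih
      exact ⟨l ++ l', by rw [pow_succ', Module.End.mul_apply, nt_cv_wZ, h, wL_append]⟩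
  have hinj : Function.Injective (nt_wZ l) := fun x y h => cv_inj (by
    rw [← wL_rev l (cv x), ← wL_rev l (cv y), ← nt_cv_wZ l x, ← nt_cv_wZ l y, h])
  obtain ⟨m, n, hmn, h⟩ := (finite_orbit (cv ζ)).exists_lt_map_eq_of_forall_mem
    (f := fun n : ℕ => cv ((nt_wZ l ^ n) ζ)) fun n => (h1 n).imp fun _ h => h.symm
  obtain ⟨d, rfl⟩ := Nat.exists_eq_add_of_lt hmn
  refine ⟨d + 1, Nat.succ_pos d, ?_⟩
  have h2 := cv_inj h
  rw [add_assoc, pow_add, Module.End.mul_apply, Module.End.pow_apply] at h2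
  rw [Module.End.pow_apply (nt_wZ l) m] at h2
  exact ((hinj.iterate m) h2).symm

/-- the Frobenius map expands -/
theorem nt_expand (l : List (Fin 7)) {q : ℝ} (hq : 3 ≤ q) (x : E) :
    4 * bf x x ≤ bf (q • wL l x - x) (q • wL l x - x) := by
  have h1 := bf_pd.nonneg (wL l x - x)
  have h2 := bf_pd.nonneg x
  simp only [map_sub, map_smul, LinearMap.sub_apply, LinearMap.smul_apply, smul_eq_mul, wL_iso] at h1 ⊢
  rw [bf_symm x (wL l x)] at h1 ⊢
  nlinarith [mul_nonneg (show 0 ≤ q by linarith) h1, mul_nonneg (mul_nonneg (show 0 ≤ q - 3 by linarith)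
    (show 0 ≤ q + 1 by linarith)) h2]

end Kf

namespace Sit

variable {p a b : ℕ} {F : Type u} {K : Type v} {k : Type u} [Field F] [Fintype F] [Field K] [Fintype K] [Field k]
  (S : Sit p a b F K k)

/-- the rational points of an abelian subgroup which is normalised by `M` are central -/
theorem nt_base {D : Subgroup (Gh k)} (hM : ∀ m ∈ S.M, ∀ x ∈ D, m * x * m⁻¹ ∈ D) (hc : ∀ x ∈ D, ∀ y ∈ D, x * y = y * x)
    {y : Gh k} (hy : y ∈ D) (hσ : S.σ y = y) : y ∈ Subgroup.center (Gh k) := by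
  obtain ⟨y0, rfl⟩ := S.k_desc hσ
  let B : Subgroup ↥(chevE7.group F) := (D.comap (emb S.f)).map (ad F)
  have hB : ∀ x ∈ B, ∀ y ∈ B, x * y = y * x := by
    rintro _ ⟨x, hx, rfl⟩ _ ⟨y, hy, rfl⟩
    rw [← map_mul, ← map_mul]
    congr 1
    exact emb_injective S.f (by rw [map_mul, map_mul]; exact hc _ hx _ hy)
  have hn : ∀ h ∈ S.H, ∀ x ∈ B, h * x * h⁻¹ ∈ B := by
    rintro h hh _ ⟨x, hx, rfl⟩
    obtain ⟨m, rfl⟩ := ad_surjective h
    refine ⟨m * x * m⁻¹, ?_, by rw [map_mul, map_mul, map_inv]⟩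
    show emb S.f (m * x * m⁻¹) ∈ D
    rw [map_mul, map_mul, map_inv]
    exact hM _ ⟨m, hh, rfl⟩ _ hx
  have h0 : B = ⊥ := by
    by_contra hne
    have h1 : ¬ S.φ.range ≤ B := fun h => by
      obtain ⟨x, y, hxy⟩ := psl_noncomm S.k_four
      exact hxy (S.max.inj (by rw [map_mul, map_mul]; exact hB _ (h ⟨x, rfl⟩) _ (h ⟨y, rfl⟩)))
    have h2 : S.H ≤ Subgroup.normalizer B := fun h hh => Subgroup.mem_normalizer_iff.2 fun x =>
      ⟨hn h hh x, fun hx => by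
        have h3 := hn _ (inv_mem hh) _ hx
        rwa [show h⁻¹ * (h * x * h⁻¹) * h⁻¹⁻¹ = x by group] at h3⟩
    rcases h2.eq_or_lt with h3 | h3
    · exact h1 (S.max.min B (h3 ▸ Subgroup.le_normalizer) hn hne)
    · have h4 := Subgroup.normalizer_eq_top_iff.1 (S.max.coatom.2 _ h3)
      have := simpleE7 (K := F)
      exact h1 ((h4.eq_bot_or_eq_top.resolve_left hne) ▸ le_top)
  have h1 : ad F y0 = 1 := (Subgroup.eq_bot_iff_forall B).1 h0 _ ⟨y0, hy, rfl⟩
  rw [← ker_ad, MonoidHom.mem_ker, ad_emb, h1, map_one]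

/-- an element whose commutators with `A` are central centralises `A` -/
theorem nt_cent {y : Gh k} (h : ∀ x, y⁻¹ * (S.ψ x * y * (S.ψ x)⁻¹) ∈ Subgroup.center (Gh k)) : S.Cent y := by
  have key : ∀ x, y⁻¹ * S.ψ x * y = S.ψ x * (y⁻¹ * (S.ψ x * y * (S.ψ x)⁻¹)) := fun x => by
    rw [Subgroup.mem_center_iff.1 (h x)]
    group
  intro x
  refine (Subgroup.mem_centralizer_singleton_iff.1
    (S.nt_all (T := (Subgroup.centralizer {y}).comap S.ψ) (fun x x' => ?_) x) :)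
  refine Subgroup.mem_centralizer_singleton_iff.2 ?_
  have h1 := nt_comm_center (x := S.ψ x) (y := S.ψ x') (h x) (h x')
  rw [← key, ← key] at h1
  rw [map_mul, map_mul, map_mul, map_inv, map_inv]
  conv_rhs => rw [← h1]
  group

/-- the rational points modulo the centre -/
theorem nt_base' (hs : S.SSC) {D : Subgroup (Gh k)}
    (hM : ∀ m ∈ S.M, ∀ x ∈ D, m * x * m⁻¹ ∈ D) (hc : ∀ x ∈ D, ∀ y ∈ D, x * y = y * x)
    {y : Gh k} (hy : y ∈ D) (h : y⁻¹ * S.σ y ∈ Subgroup.center (Gh k)) : y ∈ Subgroup.center (Gh k) := by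
  have h3 : S.σ y = y * (y⁻¹ * S.σ y) := by group
  rcases V_center h with h4 | h4
  · rw [faithful h4, mul_one] at h3
    exact S.nt_base hM hc hy h3
  refine (hs y (S.nt_cent fun x => S.nt_base hM hc (mul_mem (inv_mem hy) (hM _ (S.k_ψ_mem x) y hy)) ?_) ?_).elim
  · rw [map_mul, map_mul, map_mul, map_inv, map_inv, S.k_σ_ψ, h3]
    generalize y⁻¹ * S.σ y = z at h
    rw [← mul_assoc (S.ψ x), mul_assoc _ z, ← Subgroup.mem_center_iff.1 h, ← mul_assoc (S.ψ x * y),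
      Subgroup.mem_center_iff.1 h, Subgroup.mem_center_iff.1 h]
    group
  · rw [h3, map_mul, h4]
    exact mul_neg_one (α := Module.End k (D1 → k)) _

/-- **NT** -/
theorem nt (hp : p ≠ 2) (hs : S.SSC) : S.NT := by
  intro D g l hσ hM hT hl
  have := S.closed
  have := S.chark
  have hc : ∀ x ∈ D, ∀ y ∈ D, x * y = y * x := by
    intro x hx y hy
    obtain ⟨s, rfl⟩ := hT x hx
    obtain ⟨t, rfl⟩ := hT y hy
    rw [conj_mul, conj_mul, ← map_mul, ← map_mul, mul_comm s t]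
  obtain ⟨l0, h0⟩ := conj_T_nL (g⁻¹ * S.σ g)
  let τ : (Fin 7 → ℤ) → kˣ → Gh k := fun ζ z => g * Phi k (lam (nt_cw ζ) z) * g⁻¹
  have τ_add : ∀ ζ η z, τ (ζ + η) z = τ ζ z * τ η z := fun ζ η z => by
    simp only [τ]
    rw [nt_cw_add, nt_lam_add, map_mul, conj_mul]
  have τ_smul : ∀ (n : ℤ) ζ z, τ (n • ζ) z = τ ζ (z ^ n) := fun n ζ z => by
    simp only [τ]
    rw [nt_cw_smul, nt_lam_smul]
  have τ_cen : ∀ ζ z, τ ζ z ∈ Subgroup.center (Gh k) ↔ ∀ i, z ^ (2 * ζ i) = 1 := fun ζ z => by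
    rw [← nt_center_cw]
    exact (Subgroup.normal_of_characteristic _).mem_comm_iff.trans (by rw [inv_mul_cancel_left])
  let Λ : Submodule ℤ (Fin 7 → ℤ) :=
    { carrier := {ζ | ∀ z, τ ζ z ∈ D}
      add_mem' := fun h h' z => by rw [τ_add]; exact mul_mem (h z) (h' z)
      zero_mem' := fun z => by
        have h1 := τ_add 0 0 z
        rw [add_zero, left_eq_mul] at h1
        rw [h1]; exact one_mem _
      smul_mem' := fun n _ h z => by rw [τ_smul]; exact h _ }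
  set q : ℤ := (p : ℤ) ^ b with hq
  let Fr : Module.End ℤ (Fin 7 → ℤ) := q • nt_wZ l0
  have hFr : ∀ ζ ∈ Λ, ∀ z, S.σ (τ ζ z) = τ (Fr ζ) z := by
    intro ζ hζ z
    obtain ⟨t, ht⟩ := hT _ (hσ _ (hζ z))
    have h1 : S.σ (Phi k (lam (nt_cw ζ) z)) = Phi k (lam (nt_cw ζ) (z ^ q)) := by
      refine (emb_Phi S.s _).trans (congrArg _ (funext fun i => Units.ext ?_))
      show S.s ((z ^ nt_cw ζ i : kˣ) : k) = (((z ^ q) ^ nt_cw ζ i : kˣ) : k)
      rw [S.k_frob, ← _root_.zpow_mul, mul_comm, _root_.zpow_mul, hq, ← Nat.cast_pow, zpow_natCast, Units.val_pow_eq_pow_val]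
    have h2 := h0 (lam (nt_cw ζ) (z ^ q)) t (by
      rw [← h1, show Phi k t = g⁻¹ * (g * Phi k t * g⁻¹) * g by group, ← ht]
      simp only [τ, map_mul, map_inv]
      group)
    rw [nt_conj_lam l0 (m' := nt_cw (nt_wZ l0 ζ)) (by rw [nt_lE_cw, nt_lE_cw, nt_cv_wZ, map_smul])] at h2
    rw [ht, ← h2]
    exact (τ_smul q _ z).symm
  have hFΛ : ∀ ζ ∈ Λ, Fr ζ ∈ Λ := fun ζ hζ z => hFr ζ hζ z ▸ hσ _ (hζ z)
  have hq3 : 3 ≤ q := by
    have h1 := S.prime.two_le
    have h2 : (p : ℤ) ^ 1 ≤ q := pow_le_pow_right₀ (by omega) S.hb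
    rw [pow_one] at h2
    omega
  have step : ∀ ζ ∈ Λ, ∃ η ∈ Λ, Fr η - η = ζ := by
    intro ζ hζ
    obtain ⟨m, hm, e⟩ := nt_period l0 ζ
    obtain ⟨N, hN⟩ : ∃ N : ℕ, (N : ℤ) = q ^ m - 1 := Int.eq_ofNat_of_zero_le (by
      have := one_le_pow₀ (n := m) (show 1 ≤ q by omega)
      omega) |>.imp fun _ h => h.symm
    have hNk : (N : k) ≠ 0 := by
      have h1 : ((N : ℤ) : k) = -1 := by
        rw [hN, hq]
        push_cast
        rw [CharP.cast_eq_zero, zero_pow (by have := S.hb; omega), zero_pow hm.ne', zero_sub]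
      rw [Int.cast_natCast] at h1
      rw [h1]
      exact neg_ne_zero.2 one_ne_zero
    have hN0 : N ≠ 0 := fun h => hNk (by rw [h, Nat.cast_zero])
    obtain ⟨z, hz⟩ := nt_exists_root (K := k) (N := 2 * N) (by
      rw [Nat.cast_mul, Nat.cast_ofNat]
      exact mul_ne_zero (S.nt_two hp) hNk)
    have hη : (∑ i ∈ Finset.range m, Fr ^ i) ζ ∈ Λ := by
      rw [LinearMap.sum_apply]
      refine Submodule.sum_mem _ fun i _ => ?_
      induction i with
      | zero => exact hζ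
      | succ i ih => rw [pow_succ', Module.End.mul_apply]; exact hFΛ _ (ih (by simp_all; omega))
    set η := (∑ i ∈ Finset.range m, Fr ^ i) ζ with hηd
    have h1 : Fr η - η = (N : ℤ) • ζ := by
      have h2 := congrArg (fun T : Module.End ℤ (Fin 7 → ℤ) => T ζ) (mul_geom_sum Fr m)
      simp only [Module.End.mul_apply, LinearMap.sub_apply, Module.End.one_apply] at h2
      rw [h2, hN, sub_smul, one_smul, smul_pow, LinearMap.smul_apply, e]
    have h2 := (τ_cen η z).1 (S.nt_base' hs hM hc (hη z) (by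
      rw [hFr η hη, show Fr η = η + (N : ℤ) • ζ by rw [← h1]; abel, τ_add, inv_mul_cancel_left, τ_cen]
      intro i
      rw [Pi.smul_apply, smul_eq_mul, ← mul_assoc, _root_.zpow_mul, show (2 * N : ℤ) = ((2 * N : ℕ) : ℤ) by push_cast; rfl,
        zpow_natCast, hz.pow_eq_one, _root_.one_zpow]))
    choose η' hη' using fun i => (hz.zpow_eq_one_iff_dvd _).1 (h2 i)
    have h3 : η = (N : ℤ) • η' := funext fun i => by
      have h4 := hη' i
      rw [Pi.smul_apply, smul_eq_mul]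
      push_cast at h4
      linarith
    refine ⟨η', fun y => ?_, ?_⟩
    · obtain ⟨x, rfl⟩ := nt_exists_pow (Nat.pos_of_ne_zero hN0) y
      rw [← zpow_natCast, ← τ_smul, ← h3]
      exact hη x
    · rw [h3, map_smul, ← smul_sub] at h1
      exact smul_right_injective _ (by exact_mod_cast hN0) h1
  have key : ∀ n : ℕ, ∀ ζ ∈ Λ, 2 * bf (cv ζ) (cv ζ) < n → ζ = 0 := by
    intro n
    induction n with
    | zero =>
      intro ζ _ h
      have := bf_pd.nonneg (cv ζ)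
      rw [Nat.cast_zero] at h
      linarith
    | succ n ih =>
      intro ζ hζ h
      by_contra hne
      obtain ⟨η, hη, e⟩ := step ζ hζ
      have h1 := nt_expand l0 (q := q) (by exact_mod_cast hq3) (cv η)
      rw [← nt_cv_wZ, ← cv_zsmul, ← cv_sub, show q • nt_wZ l0 η = Fr η from rfl, e] at h1
      have h2 := bf_pd.pos (cv ζ) fun h0 => hne (cv_inj (h0.trans cv_zero.symm))
      have h3 : 2 * bf (cv ζ) (cv ζ) ≤ n := by
        rw [← nt_bf_cw] at h ⊢
        have h4 : ∑ i, ζ i * nt_cw ζ i < ((n + 1 : ℕ) : ℤ) := by exact_mod_cast h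
        exact_mod_cast (show ∑ i, ζ i * nt_cw ζ i ≤ (n : ℤ) by omega)
      rw [ih η hη (by linarith), map_zero, sub_zero] at e
      exact hne e.symm
  obtain ⟨n, hn⟩ := exists_nat_gt (2 * bf (cv (nt_lb l)) (cv (nt_lb l)))
  have h1 := key n (nt_lb l) (fun z => by
    simp only [τ]
    rw [nt_cw_lb, nt_lam_smul]
    exact hl _) hn
  have h2 := nt_cw_lb l
  rw [h1, ← zero_smul ℤ (0 : Fin 7 → ℤ), nt_cw_smul, zero_smul] at h2
  exact (smul_eq_zero.1 h2.symm).resolve_left two_ne_zero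

end Sit

end Cfsg.Agent.E7P
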