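import Cfsg.Agent.E7P.Nt.Nt
import Cfsg.Agent.E7P.Base.Act
import Cfsg.Agent.E7P.Lie.ATor
import Cfsg.Agent.E7P.Lie.Exp
import Cfsg.Agent.E7P.Br.Pi

/-!
# S5932: centralisers and annihilators, the exponent of pointwise stabilisers (helper9)

* `Kf.nt_cen W`, `Kf.nt_ann W`, `Kf.nt_ker C` : centraliser, annihilator, kernel; `Sit.nt_stb_cen/ann/ker` : they are stable;
* `Sit.nt_Fx_σ`, `Sit.nt_Fx_M` : pointwise stabilisers are normalised;
* `Sit.nt_expo`, `nt_expo_V`, `nt_expo_L` : **EXPO**.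
-/

set_option autoImplicit false
set_option maxRecDepth 100000

namespace Cfsg.Agent.E7P

open Cfsg Cfsg.Lie Matrix Module
open Cfsg.Agent.H943.E7V.Block (D1 rho)
open Cfsg.Agent.R2.T1 Cfsg.Agent.E7P.Kf
open Cfsg.Agent.R2.PX (del)
open Cfsg.Agent.E7P.La (Jd eqv wval)

universe u v

namespace Kf

variable {K : Type u} [Field K]

theorem nt_cm_symm {x y : chevE7.Idx → K} (h : Cm x y) : Cm y x := Eq.symm h

/-- the centraliser in the Lie algebra -/
def nt_cen (W : Submodule K (chevE7.Idx → K)) : Submodule K (chevE7.Idx → K) where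
  carrier := {x | ∀ w ∈ W, Cm x w}
  zero_mem' := fun w _ => by
    show del K 0 * _ = _ * del K 0
    rw [map_zero, zero_mul, mul_zero]
  add_mem' := fun {x y} hx hy w hw => by
    show del K (x + y) * _ = _ * del K (x + y)
    rw [map_add, add_mul, mul_add, show del K x * del K w = _ from hx w hw, show del K y * del K w = _ from hy w hw]
  smul_mem' := fun t x hx w hw => by
    show del K (t • x) * _ = _ * del K (t • x)
    rw [map_smul, smul_mul_assoc, mul_smul_comm, show del K x * del K w = _ from hx w hw]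

theorem nt_mem_cen {W : Submodule K (chevE7.Idx → K)} {x : chevE7.Idx → K} : x ∈ nt_cen W ↔ ∀ w ∈ W, Cm x w := Iff.rfl

/-- the annihilator in the Lie algebra -/
def nt_ann (W : Submodule K (D1 → K)) : Submodule K (chevE7.Idx → K) where
  carrier := {x | ∀ w ∈ W, del K x *ᵥ w = 0}
  zero_mem' := fun w _ => by rw [map_zero, zero_mulVec]
  add_mem' := fun hx hy w hw => by rw [map_add, add_mulVec, hx w hw, hy w hw, add_zero]
  smul_mem' := fun t x hx w hw => by rw [map_smul, smul_mulVec, hx w hw, smul_zero]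

theorem nt_mem_ann {W : Submodule K (D1 → K)} {x : chevE7.Idx → K} : x ∈ nt_ann W ↔ ∀ w ∈ W, del K x *ᵥ w = 0 := Iff.rfl

/-- the common kernel in `V` -/
def nt_ker (C : Submodule K (chevE7.Idx → K)) : Submodule K (D1 → K) where
  carrier := {w | ∀ x ∈ C, del K x *ᵥ w = 0}
  zero_mem' := fun _ _ => mulVec_zero _
  add_mem' := fun hv hw x hx => by rw [mulVec_add, hv x hx, hw x hx, add_zero]
  smul_mem' := fun t v hv x hx => by rw [mulVec_smul, hv x hx, smul_zero]

theorem nt_mem_ker {C : Submodule K (chevE7.Idx → K)} {w : D1 → K} : w ∈ nt_ker C ↔ ∀ x ∈ C, del K x *ᵥ w = 0 := Iff.rfl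

theorem nt_del_rho (h2 : (2 : K) ≠ 0) (g : Gh K) (x : chevE7.Idx → K) (w : D1 → K) :
    del K (adM K g *ᵥ x) *ᵥ (rho K g *ᵥ w) = rho K g *ᵥ (del K x *ᵥ w) := by
  rw [mulVec_mulVec, mulVec_mulVec, R2.PX.del_equi h2]

theorem nt_cen_br {W : Submodule K (chevE7.Idx → K)} {x y z : chevE7.Idx → K} (hx : x ∈ nt_cen W) (hy : y ∈ nt_cen W)
    (h : del K z = del K x * del K y - del K y * del K x) : z ∈ nt_cen W := fun w hw => by
  have h1 : Commute (del K x) (del K w) := hx w hw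
  have h3 : Commute (del K y) (del K w) := hy w hw
  show Commute (del K z) (del K w)
  rw [h]
  exact (h1.mul_left h3).sub_left (h3.mul_left h1)

theorem nt_ann_br {W : Submodule K (D1 → K)} {x y z : chevE7.Idx → K} (hx : x ∈ nt_ann W) (hy : y ∈ nt_ann W)
    (h : del K z = del K x * del K y - del K y * del K x) : z ∈ nt_ann W := fun w hw => by
  rw [h, sub_mulVec, ← mulVec_mulVec, ← mulVec_mulVec, hx w hw, hy w hw, mulVec_zero, mulVec_zero, sub_zero]

theorem nt_cen_jd (h2 : (2 : K) ≠ 0) {W : Submodule K (chevE7.Idx → K)} {x s z : chevE7.Idx → K} (hx : x ∈ nt_cen W)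
    (h : Jd x s z) : z ∈ nt_cen W := fun w hw => nt_cm_symm (h.cm_of (eqv h2) (nt_cm_symm (hx w hw))).2

theorem nt_ann_jd (h2 : (2 : K) ≠ 0) {W : Submodule K (D1 → K)} {x s z : chevE7.Idx → K} (hx : x ∈ nt_ann W)
    (h : Jd x s z) : z ∈ nt_ann W := fun w hw => (h.ker (eqv h2) (hx w hw)).2

theorem nt_rval_tv (r : ℕ) (l : Fin 7 → K) : rval r (tv l) = ∑ i : Fin 7, l i * (rc r i : K) :=
  Finset.sum_congr rfl fun _ _ => mul_comm _ _

theorem nt_wval_root (l : Fin 7 → K) {r : ℕ} (hr : r < 126) {a b : D1} {c : ℤ} (h : mv r (nn b) = some (nn a, c)) :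
    wval l a = wval l b + rval r (tv l) := by
  rw [wval, wval, nt_rval_tv, wc_add hr h, ← Finset.sum_add_distrib]
  exact Finset.sum_congr rfl fun i _ => by rw [Pi.add_apply, Int.cast_add, mul_add]

/-- the support of an element which commutes with a toral element -/
theorem nt_cm_tv {l : Fin 7 → K} {x : chevE7.Idx → K} :
    Cm (tv l) x ↔ ∀ r : Fin chevE7.nroots, x (Sum.inr r) ≠ 0 → rval r (tv l) = 0 := by
  constructor
  · intro h r hr
    obtain ⟨a, b, c, h1, h2⟩ := R2.PX.Tr.exists_entry (show (r : ℕ) < 126 from r.2)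
    have h3 := congrFun (congrFun h a) b
    rw [La.del_tv, mul_diagonal, diagonal_mul, Mu.del_entry x r.2 h1, nt_wval_root l r.2 h1] at h3
    have h4 : rval r (tv l) * (x (Sum.inr r) * c) = 0 := by linear_combination h3
    exact (mul_eq_zero.1 h4).resolve_right (mul_ne_zero hr (cast_ne h2))
  · intro h
    have h1 : del K x = del K (La.tp x) + del K (x - La.tp x) := by rw [← map_add, add_sub_cancel]
    have h2 : Commute (del K (tv l)) (del K (x - La.tp x)) := by
      rw [La.del_root (z := x - La.tp x) fun _ => sub_self _]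
      refine Commute.sum_right _ _ _ fun r _ => ?_
      rw [Pi.sub_apply, La.tp, tv_inr, sub_zero]
      by_cases e : x (Sum.inr r) = 0
      · rw [e, zero_smul]; exact Commute.zero_right _
      · refine Commute.smul_right (sub_eq_zero.1 ?_) _
        rw [La.tv_NM l r.2, h r e, zero_smul]
    show Commute (del K (tv l)) (del K x)
    rw [h1]
    exact Commute.add_right (La.cm_tv l _) h2

theorem nt_xs_pow {p : ℕ} [CharP K p] (r : ℕ) (t : K) : xs K r t ^ p = 1 := by
  have h1 : ∀ n : ℕ, xs K r t ^ n = xs K r (n * t) := by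
    intro n
    induction n with
    | zero => rw [pow_zero, Nat.cast_zero, zero_mul, xs_zero]
    | succ n ih => rw [pow_succ, ih, xs_mul, Nat.cast_succ, add_mul, one_mul]
  rw [h1, CharP.cast_eq_zero, zero_mul, xs_zero]

theorem nt_xs_ne {r : ℕ} (hr : r < 126) : xs K r 1 ≠ 1 := fun h => by
  obtain ⟨i, j, hij⟩ := exists_NM_ne (K := K) hr
  have h1 := rho_xs' hr (1 : K)
  rw [h, map_one, one_smul, left_eq_add] at h1
  exact hij (by rw [h1]; rfl)

/-- seven weights with non-zero determinant -/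
theorem nt_exists_det {I : Type*} (c : I → Fin 7 → ℤ) (Ω : Set I)
    (h : ∀ l : Fin 7 → K, (∀ i ∈ Ω, ∑ j, l j * (c i j : K) = 0) → l = 0) :
    ∃ f : Fin 7 → I, (∀ t, f t ∈ Ω) ∧ ((det (Matrix.of fun t j => c (f t) j) : ℤ) : K) ≠ 0 := by
  classical
  let v : I → Fin 7 → K := fun i j => (c i j : K)
  have hspan : Submodule.span K (v '' Ω) = ⊤ := by
    by_contra hne
    obtain ⟨φ, h0, h1⟩ := Submodule.exists_le_ker_of_lt_top _ (lt_top_iff_ne_top.2 hne)
    refine h0 (LinearMap.pi_ext' fun j => LinearMap.ext_ring ?_)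
    exact congrFun (h (fun j => φ (Pi.single j 1)) fun i hi => by
      have h2 : φ (v i) = 0 := h1 (Submodule.subset_span ⟨i, hi, rfl⟩)
      rw [pi_eq_sum_univ' (v i), map_sum] at h2
      rw [← h2]
      exact Finset.sum_congr rfl fun j _ => by rw [map_smul, smul_eq_mul, mul_comm]) j
  obtain ⟨T, hT, hsp, hli⟩ := exists_linearIndependent K (v '' Ω)
  rw [hspan] at hsp
  let B : Basis T K (Fin 7 → K) := Basis.mk hli (by rw [Subtype.range_coe, hsp])
  have : Fintype T := FiniteDimensional.fintypeBasisIndex B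
  let e : Fin 7 ≃ T := Fintype.equivOfCardEq (by rw [← finrank_eq_card_basis B, finrank_fintype_fun_eq_card])
  choose f hf using fun t : Fin 7 => hT (e t).2
  refine ⟨f, fun t => (hf t).1, ?_⟩
  have h1 : LinearIndependent K (Matrix.of fun t j => v (f t) j).row := by
    have h2 : (Matrix.of fun t j => v (f t) j).row = Subtype.val ∘ e := funext fun t => (hf t).2
    rw [h2]
    exact hli.comp e e.injective
  have h2 := (isUnit_iff_isUnit_det _).1 (linearIndependent_rows_iff_isUnit.1 h1)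
  rw [show ((det (Matrix.of fun t j => c (f t) j) : ℤ) : K) = det (Matrix.of fun t j => v (f t) j) from
    (Int.castRingHom K).map_det _]
  exact h2.ne_zero

theorem nt_pow_det (A : Matrix (Fin 7) (Fin 7) ℤ) {t : Fin chevE7.rank → Kˣ} (h : ∀ s, ch (A s) t = 1) :
    t ^ A.det.natAbs = 1 := by
  have key : ∀ j : Fin 7, t j ^ A.det.natAbs = 1 := by
    intro j
    have h1 : ∑ s, adjugate A j s • A s = A.det • (Pi.single j 1 : Fin 7 → ℤ) := by
      funext i
      have h2 : (adjugate A * A) j i = (A.det • (1 : Matrix (Fin 7) (Fin 7) ℤ)) j i := by rw [adjugate_mul]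
      rw [Matrix.mul_apply, Matrix.smul_apply, one_apply] at h2
      rw [Finset.sum_apply, Pi.smul_apply, Pi.single_apply, if_congr eq_comm rfl rfl]
      exact h2
    have h2 : ch (Pi.single j 1 : Fin 7 → ℤ) t = t j := by
      show ∏ i : Fin 7, t i ^ (Pi.single j 1 : Fin 7 → ℤ) i = t j
      rw [Finset.prod_eq_single j]
      · rw [Pi.single_eq_same, zpow_one]
      · intro i _ hi
        rw [Pi.single_eq_of_ne hi, zpow_zero]
      · intro hj
        exact absurd (Finset.mem_univ _) hj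
    have h3 : 1 = t j ^ A.det := by
      rw [← h2, ← ch_zsmul, ← h1, ch_sum]
      exact (Finset.prod_eq_one fun s _ => by rw [ch_zsmul, h, _root_.one_zpow]).symm
    rw [← zpow_natCast]
    rcases Int.natAbs_eq A.det with e | e
    · rw [← e, ← h3]
    · rw [← neg_neg (A.det.natAbs : ℤ), ← e, _root_.zpow_neg, ← h3, inv_one]
  exact funext key

end Kf

namespace Sit

variable {p a b : ℕ} {F : Type u} {K : Type v} {k : Type u} [Field F] [Fintype F] [Field K] [Fintype K] [Field k]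
  (S : Sit p a b F K k)

theorem nt_del_sv (x : chevE7.Idx → k) : del k (S.sv x) = (del k x).map S.s := (Br.del_map S.s x).symm

theorem nt_sv_del (x : chevE7.Idx → k) (w : D1 → k) : S.sv (del k x *ᵥ w) = del k (S.sv x) *ᵥ S.sv w := by
  funext i
  show S.s ((del k x *ᵥ w) i) = _
  rw [RingHom.map_mulVec, S.nt_del_sv]
  rfl

theorem nt_sv_zero {I : Type} : S.sv (0 : I → k) = 0 := funext fun _ => map_zero _

theorem nt_sv_surj {I : Type} [Fintype I] [DecidableEq I] {R : Gh k →* Matrix I I k} {W : Submodule k (I → k)}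
    (hW : S.Stb R W) {y : I → k} (hy : y ∈ W) : ∃ y' ∈ W, y = S.sv y' := S.k_sv_surj (X := (W : Set (I → k))) hW.2 y hy

theorem nt_stb_cen (hp : p ≠ 2) {W : Submodule k (chevE7.Idx → k)} (hW : S.Stb (adM k) W) : S.Stb (adM k) (nt_cen W) := by
  refine ⟨fun m hm x hx w hw => ?_, fun x hx w hw => ?_⟩
  · have h1 := (eqv (S.nt_two hp)).cm m (hx _ (hW.1 _ (inv_mem hm) w hw))
    rwa [mulVec_inv'] at h1
  · obtain ⟨w', hw', rfl⟩ := S.nt_sv_surj hW hw
    show del k _ * del k _ = del k _ * del k _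
    rw [S.nt_del_sv, S.nt_del_sv, ← Matrix.map_mul, ← Matrix.map_mul, show del k x * del k w' = _ from hx w' hw']

theorem nt_stb_ann (hp : p ≠ 2) {W : Submodule k (D1 → k)} (hW : S.Stb (rho k) W) : S.Stb (adM k) (nt_ann W) := by
  refine ⟨fun m hm x hx w hw => ?_, fun x hx w hw => ?_⟩
  · rw [← mulVec_inv' (rho k) m w, nt_del_rho (S.nt_two hp), hx _ (hW.1 _ (inv_mem hm) w hw), mulVec_zero]
  · obtain ⟨w', hw', rfl⟩ := S.nt_sv_surj hW hw
    rw [← S.nt_sv_del, hx w' hw', S.nt_sv_zero]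

theorem nt_stb_ker (hp : p ≠ 2) {C : Submodule k (chevE7.Idx → k)} (hC : S.Stb (adM k) C) : S.Stb (rho k) (nt_ker C) := by
  refine ⟨fun m hm w hw x hx => ?_, fun w hw x hx => ?_⟩
  · rw [← mulVec_inv' (adM k) m x, nt_del_rho (S.nt_two hp), hw _ (hC.1 _ (inv_mem hm) x hx), mulVec_zero]
  · obtain ⟨x', hx', rfl⟩ := S.nt_sv_surj hC hx
    rw [← S.nt_sv_del, hw x' hx', S.nt_sv_zero]

section
variable {I : Type} [Fintype I] [DecidableEq I] {c : I → Fin 7 → ℤ} {R : Gh k →* Matrix I I k} {W : Submodule k (I → k)}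

theorem nt_Fx_σ (hR : WRep c R) (hW : S.Stb R W) : ∀ x ∈ Fx R W, S.σ x ∈ Fx R W := fun x hx y hy => by
  obtain ⟨y', hy', rfl⟩ := S.nt_sv_surj hW hy
  rw [← S.sv_mulVec hR, hx y' hy']

theorem nt_Fx_M (hW : S.Stb R W) : ∀ m ∈ S.M, ∀ x ∈ Fx R W, m * x * m⁻¹ ∈ Fx R W := fun m hm x hx y hy => by
  rw [mulVec_mul, mulVec_mul, hx _ (hW.1 _ (inv_mem hm) y hy), mulVec_inv']

include S in
/-- a subgroup without elements of order `p` consists of toral elements -/
theorem nt_order {D : Subgroup (Gh k)} (hD : ∀ x ∈ D, x ^ p = 1 → x = 1) {x : Gh k} (hx : x ∈ D) :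
    ∃ N : ℕ, (N : k) ≠ 0 ∧ x ^ N = 1 := by
  have := S.closed
  have := S.chark
  have := finite_closure S.prime S.alg (Set.toFinite {x})
  have h0 : orderOf x ≠ 0 := by
    have h1 := orderOf_pos (⟨x, Subgroup.subset_closure rfl⟩ : Subgroup.closure {x})
    rw [← Subgroup.orderOf_coe] at h1
    exact h1.ne'
  refine ⟨orderOf x, fun h => ?_, pow_orderOf_eq_one x⟩
  obtain ⟨n, hn⟩ := (CharP.cast_eq_zero_iff k p _).1 h
  have h1 := hD _ (pow_mem hx n) (by rw [← pow_mul, mul_comm, ← hn, pow_orderOf_eq_one])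
  have h2 := Nat.le_of_dvd (Nat.pos_of_ne_zero (by rintro rfl; exact h0 hn)) (orderOf_dvd_of_pow_eq_one h1)
  have h3 := S.prime.two_le
  have h4 : 0 < n := Nat.pos_of_ne_zero (by rintro rfl; exact h0 hn)
  nlinarith

include S in
/-- **EXPO** -/
theorem nt_expo (hR : WRep c R) (hp : ∀ x, (∀ y ∈ W, R x *ᵥ y = y) → x ^ p = 1 → x = 1)
    (ht : ∀ (g : Gh k) (l : Fin 7 → k), (∀ y ∈ W, ∀ i, (R g⁻¹ *ᵥ y) i ≠ 0 → ∑ j, l j * (c i j : k) = 0) → l = 0) :
    ∃ N : ℕ, (N : k) ≠ 0 ∧ ∀ x, (∀ y ∈ W, R x *ᵥ y = y) → x ^ N = 1 := by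
  classical
  have := S.closed
  have := S.chark
  refine ⟨∏ f ∈ Finset.univ.filter fun f : Fin 7 → I => ((det (Matrix.of fun t j => c (f t) j) : ℤ) : k) ≠ 0,
    (det (Matrix.of fun t j => c (f t) j)).natAbs, ?_, fun x hx => ?_⟩
  · rw [Nat.cast_prod]
    refine Finset.prod_ne_zero_iff.2 fun f hf h0 => (Finset.mem_filter.1 hf).2 ?_
    rw [CharP.cast_eq_zero_iff k p] at h0
    exact (CharP.intCast_eq_zero_iff k p _).2 (Int.natCast_dvd.2 h0)
  obtain ⟨n, hn, h1⟩ := S.nt_order (D := Fx R W) hp hx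
  obtain ⟨g, t, rfl⟩ := exists_conj_T S.prime S.alg hn h1
  obtain ⟨f, hf, h2⟩ := nt_exists_det c {i | ∃ y ∈ W, (R g⁻¹ *ᵥ y) i ≠ 0} fun l hl =>
    ht g l fun y hy i hi => hl i ⟨y, hy, hi⟩
  have h3 := nt_pow_det (Matrix.of fun t j => c (f t) j) (t := t) fun s => by
    obtain ⟨y, hy, hi⟩ := hf s
    have h4 := congrFun (congrArg (fun z => R g⁻¹ *ᵥ z) (hx y hy)) (f s)
    simp only [mulVec_mul, mulVec_inv] at h4
    rw [hR.tor, mulVec_diagonal] at h4
    exact Units.ext (mul_right_cancel₀ hi (h4.trans (one_mul _).symm))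
  obtain ⟨d, hd⟩ := Finset.dvd_prod_of_mem (fun f : Fin 7 → I => (det (Matrix.of fun t j => c (f t) j)).natAbs)
    (s := Finset.univ.filter fun f : Fin 7 → I => ((det (Matrix.of fun t j => c (f t) j) : ℤ) : k) ≠ 0)
    (Finset.mem_filter.2 ⟨Finset.mem_univ f, h2⟩)
  rw [hd, conj_pow, pow_mul, ← map_pow, h3, map_one, one_pow, mul_one, mul_inv_cancel]

end

include S in
/-- **EXPO** for the 56-dimensional module -/
theorem nt_expo_V (h2 : p ≠ 2) {W : Submodule k (D1 → k)} (hp : ∀ x, (∀ y ∈ W, rho k x *ᵥ y = y) → x ^ p = 1 → x = 1)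
    (ht : nt_ann W = ⊥) : ∃ N : ℕ, (N : k) ≠ 0 ∧ ∀ x, (∀ y ∈ W, rho k x *ᵥ y = y) → x ^ N = 1 := by
  refine S.nt_expo wrep_V hp fun g l hl => ?_
  have h1 : adM k g *ᵥ tv l = 0 := (Submodule.eq_bot_iff _).1 ht _ fun y hy => by
    rw [← mulVec_inv' (rho k) g y, nt_del_rho (S.nt_two h2), La.del_tv]
    refine (congrArg _ (funext fun i => ?_)).trans (mulVec_zero _)
    rw [mulVec_diagonal]
    by_cases e : (rho k g⁻¹ *ᵥ y) i = 0
    · rw [e, mul_zero]; rfl
    · rw [show wval l i = 0 from hl y hy i e, zero_mul]; rfl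
  have h3 : tv l = 0 := by rw [← mulVec_inv (adM k) g (tv l), h1, mulVec_zero]
  exact funext fun i => congrFun h3 (Sum.inl i)

include S in
/-- **EXPO** for the Lie algebra -/
theorem nt_expo_L (h2 : p ≠ 2) {W : Submodule k (chevE7.Idx → k)}
    (hp : ∀ x, (∀ y ∈ W, adM k x *ᵥ y = y) → x ^ p = 1 → x = 1) (ht : nt_cen W = ⊥) :
    ∃ N : ℕ, (N : k) ≠ 0 ∧ ∀ x, (∀ y ∈ W, adM k x *ᵥ y = y) → x ^ N = 1 := by
  refine S.nt_expo wrep_L hp fun g l hl => ?_
  have h1 : adM k g *ᵥ tv l = 0 := (Submodule.eq_bot_iff _).1 ht _ fun y hy => by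
    rw [← mulVec_inv' (adM k) g y]
    refine (eqv (S.nt_two h2)).cm g (nt_cm_tv.2 fun r hr => ?_)
    rw [← hl y hy _ hr, nt_rval_tv]
    rfl
  have h3 : tv l = 0 := by rw [← mulVec_inv (adM k) g (tv l), h1, mulVec_zero]
  exact funext fun i => congrFun h3 (Sum.inl i)

end Sit

end Cfsg.Agent.E7P
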